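import Cfsg.Agent.Lib.SporRecognition.LyRep.Packed
import Cfsg.Agent.Lib.SporRecognition.LyRep.DataA
import Cfsg.Agent.Lib.SporRecognition.LyRep.DataB
import Cfsg.Agent.Lib.SporRecognition.LyRep.DataC
import Cfsg.Agent.Lib.SporRecognition.LyRep.DataD
import Cfsg.Agent.Lib.SporRecognition.LyRep.DataZ
import Cfsg.Prelude.Def_Spor_Ly

/-! The invertible matrices of degree 111 over `ZMod 5` and the tools for evaluating words in them. -/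

set_option autoImplicit false
set_option maxRecDepth 100000
set_option Elab.async false

namespace CfsgLib.SporRecognition.LyRep

attribute [local irreducible] mul one mat okB ent matA invA matB invB matC invC matD invD matZ invZ

theorem mat_inj {A B : ℕ} (hA : OK A) (hB : OK B) (h : mat A = mat B) : A = B := by
  have key : ∀ C : ℕ, OK C → C = pk 32 12321 fun m => ent C (m / 111) (m % 111) := fun C hC => by
    conv_lhs => rw [← Nat.mod_eq_of_lt hC.1, ← pk_self]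
    refine pk_congr fun m _ => ?_
    unfold ent
    rw [Nat.div_add_mod]
  rw [key A hA, key B hB]
  refine pk_congr fun m hm => ?_
  have hi : m / 111 < 111 := by omega
  have hj : m % 111 < 111 := Nat.mod_lt _ (by norm_num)
  have e := congrFun (congrFun h ⟨m / 111, hi⟩) ⟨m % 111, hj⟩
  unfold mat at e
  simp only [Matrix.of_apply] at e
  have e' := congrArg ZMod.val e
  rwa [ZMod.val_natCast, ZMod.val_natCast, Nat.mod_eq_of_lt (hA.2 _ hi _ hj), Nat.mod_eq_of_lt (hB.2 _ hi _ hj)] at e'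

/-- The ring of matrices. -/
abbrev M111 : Type := Matrix (Fin 111) (Fin 111) (ZMod 5)

/-- The packed number represents the unit. -/
def Rep (A : ℕ) (a : M111ˣ) : Prop := OK A ∧ mat A = (a : M111)

theorem rep_mul {A B : ℕ} {a b : M111ˣ} (ha : Rep A a) (hb : Rep B b) : Rep (mul A B) (a * b) :=
  ⟨(mul_spec ha.1 hb.1).1, by rw [(mul_spec ha.1 hb.1).2, ha.2, hb.2, Units.val_mul]⟩

/-- Square. -/
noncomputable def pw2 (A : ℕ) : ℕ := mul A A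
/-- Cube. -/
noncomputable def pw3 (A : ℕ) : ℕ := mul (pw2 A) A
/-- Fourth power. -/
noncomputable def pw4 (A : ℕ) : ℕ := pw2 (pw2 A)
/-- Fifth power. -/
noncomputable def pw5 (A : ℕ) : ℕ := mul (pw4 A) A
/-- Sixth power. -/
noncomputable def pw6 (A : ℕ) : ℕ := pw2 (pw3 A)
/-- Eighth power. -/
noncomputable def pw8 (A : ℕ) : ℕ := pw2 (pw4 A)

theorem rep_pw2 {A : ℕ} {a : M111ˣ} (ha : Rep A a) : Rep (pw2 A) (a ^ 2) := by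
  rw [pow_two]; exact rep_mul ha ha
theorem rep_pw3 {A : ℕ} {a : M111ˣ} (ha : Rep A a) : Rep (pw3 A) (a ^ 3) := by
  rw [pow_succ]; exact rep_mul (rep_pw2 ha) ha
theorem rep_pw4 {A : ℕ} {a : M111ˣ} (ha : Rep A a) : Rep (pw4 A) (a ^ 4) := by
  rw [show a ^ 4 = (a ^ 2) ^ 2 by rw [← pow_mul]]; exact rep_pw2 (rep_pw2 ha)
theorem rep_pw5 {A : ℕ} {a : M111ˣ} (ha : Rep A a) : Rep (pw5 A) (a ^ 5) := by
  rw [pow_succ]; exact rep_mul (rep_pw4 ha) ha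
theorem rep_pw6 {A : ℕ} {a : M111ˣ} (ha : Rep A a) : Rep (pw6 A) (a ^ 6) := by
  rw [show a ^ 6 = (a ^ 3) ^ 2 by rw [← pow_mul]]; exact rep_pw2 (rep_pw3 ha)
theorem rep_pw8 {A : ℕ} {a : M111ˣ} (ha : Rep A a) : Rep (pw8 A) (a ^ 8) := by
  rw [show a ^ 8 = (a ^ 4) ^ 2 by rw [← pow_mul]]; exact rep_pw2 (rep_pw4 ha)

theorem eq_one_of_rep {A : ℕ} {a : M111ˣ} (ha : Rep A a) (h : Nat.beq A one = true) : a = 1 := by
  refine Units.ext ?_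
  rw [← ha.2, Nat.eq_of_beq_eq_true h, Units.val_one]
  exact one_spec.2

theorem ne_of_rep {A B : ℕ} {a b : M111ˣ} (ha : Rep A a) (hb : Rep B b) (h : Nat.beq A B = false) : a ≠ b := by
  intro e
  have := mat_inj ha.1 hb.1 (ha.2.trans ((congrArg Units.val e).trans hb.2.symm))
  rw [this] at h
  simp at h

theorem rep_one : Rep one 1 := ⟨one_spec.1, one_spec.2.trans Units.val_one.symm⟩

/-- The check of a matrix with its inverse. -/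
noncomputable def pairB (A B : ℕ) : Bool :=
  okB A && okB B && Nat.beq (mul A B) one && Nat.beq (mul B A) one

theorem pairMatA : pairB matA invA = true := by decide +kernel
theorem pairMatB : pairB matB invB = true := by decide +kernel
theorem pairMatC : pairB matC invC = true := by decide +kernel
theorem pairMatD : pairB matD invD = true := by decide +kernel
theorem pairMatZ : pairB matZ invZ = true := by decide +kernel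

theorem pair_spec {A B : ℕ} (h : pairB A B = true) :
    OK A ∧ OK B ∧ mat A * mat B = 1 ∧ mat B * mat A = 1 := by
  unfold pairB at h
  simp only [Bool.and_eq_true] at h
  obtain ⟨⟨⟨hA, hB⟩, h1⟩, h2⟩ := h
  refine ⟨ok_of_okB hA, ok_of_okB hB, ?_, ?_⟩
  · rw [← (mul_spec (ok_of_okB hA) (ok_of_okB hB)).2, Nat.eq_of_beq_eq_true h1, one_spec.2]
  · rw [← (mul_spec (ok_of_okB hB) (ok_of_okB hA)).2, Nat.eq_of_beq_eq_true h2, one_spec.2]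

/-- The unit of `a`. -/
noncomputable def uA : M111ˣ :=
  ⟨mat matA, mat invA, (pair_spec pairMatA).2.2.1, (pair_spec pairMatA).2.2.2⟩

theorem rep_a : Rep matA uA := ⟨(pair_spec pairMatA).1, rfl⟩
theorem rep_ai : Rep invA uA⁻¹ := ⟨(pair_spec pairMatA).2.1, rfl⟩

/-- The unit of `b`. -/
noncomputable def uB : M111ˣ :=
  ⟨mat matB, mat invB, (pair_spec pairMatB).2.2.1, (pair_spec pairMatB).2.2.2⟩

theorem rep_b : Rep matB uB := ⟨(pair_spec pairMatB).1, rfl⟩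
theorem rep_bi : Rep invB uB⁻¹ := ⟨(pair_spec pairMatB).2.1, rfl⟩

/-- The unit of `c`. -/
noncomputable def uC : M111ˣ :=
  ⟨mat matC, mat invC, (pair_spec pairMatC).2.2.1, (pair_spec pairMatC).2.2.2⟩

theorem rep_c : Rep matC uC := ⟨(pair_spec pairMatC).1, rfl⟩
theorem rep_ci : Rep invC uC⁻¹ := ⟨(pair_spec pairMatC).2.1, rfl⟩

/-- The unit of `d`. -/
noncomputable def uD : M111ˣ :=
  ⟨mat matD, mat invD, (pair_spec pairMatD).2.2.1, (pair_spec pairMatD).2.2.2⟩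

theorem rep_d : Rep matD uD := ⟨(pair_spec pairMatD).1, rfl⟩
theorem rep_di : Rep invD uD⁻¹ := ⟨(pair_spec pairMatD).2.1, rfl⟩

/-- The unit of `z`. -/
noncomputable def uZ : M111ˣ :=
  ⟨mat matZ, mat invZ, (pair_spec pairMatZ).2.2.1, (pair_spec pairMatZ).2.2.2⟩

theorem rep_z : Rep matZ uZ := ⟨(pair_spec pairMatZ).1, rfl⟩
theorem rep_zi : Rep invZ uZ⁻¹ := ⟨(pair_spec pairMatZ).2.1, rfl⟩

/-- The unit of `c1`. -/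
noncomputable abbrev w_c1 : M111ˣ := uC
/-- The unit of `c2`. -/
noncomputable abbrev w_c2 : M111ˣ := (uA⁻¹ * uC * uA)
/-- The unit of `c3`. -/
noncomputable abbrev w_c3 : M111ˣ := (uB⁻¹ * uC * uB)
/-- The unit of `c4`. -/
noncomputable abbrev w_c4 : M111ˣ := ((uB⁻¹)⁻¹ * uC * (uB⁻¹))
/-- The unit of `c5`. -/
noncomputable abbrev w_c5 : M111ˣ := (w_c1⁻¹ * w_c2⁻¹ * w_c1 * w_c2)
/-- The unit of `e`. -/
noncomputable abbrev w_e : M111ˣ := (((uB ^ 2)⁻¹) * (uA⁻¹ * w_c1⁻¹ * uA * w_c1) * (uA⁻¹) * w_c1 * uA * uD * w_c1 * uB * uA * (uB⁻¹) * uD * w_c1 * uD)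
/-- The unit of `a1`. -/
noncomputable abbrev w_a1 : M111ˣ := uA
/-- The unit of `a2`. -/
noncomputable abbrev w_a2 : M111ˣ := ((uB⁻¹)⁻¹ * uA * (uB⁻¹))
/-- The unit of `a3`. -/
noncomputable abbrev w_a3 : M111ˣ := (((uB ^ 2)⁻¹)⁻¹ * uA * ((uB ^ 2)⁻¹))
/-- The unit of `a4`. -/
noncomputable abbrev w_a4 : M111ˣ := ((uB ^ 2)⁻¹ * uA * (uB ^ 2))
/-- The unit of `u`. -/
noncomputable abbrev w_u : M111ˣ := (uA ^ 2)
/-- The unit of `x23`. -/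
noncomputable abbrev w_x23 : M111ˣ := uD
/-- The unit of `x24`. -/
noncomputable abbrev w_x24 : M111ˣ := (uD⁻¹)
/-- The unit of `x25`. -/
noncomputable abbrev w_x25 : M111ˣ := ((uB ^ 2) * (uA⁻¹) * (uB⁻¹) * (uA⁻¹) * (uB ^ 2) * (uC⁻¹) * uA * uC * (uA⁻¹) * (uC⁻¹) * uD * (uC⁻¹) * (uB ^ 2) * (uA⁻¹) * uC * uB)
/-- The unit of `x29`. -/
noncomputable abbrev w_x29 : M111ˣ := (uA * uB * (uA⁻¹) * (uB ^ 2) * (uA⁻¹) * (uB ^ 2) * (uC⁻¹) * uA * uC * uB * uC * (uB⁻¹) * uD * uC * ((uB ^ 2)⁻¹) * uD * uC * uB * uC)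
/-- The unit of `x47`. -/
noncomputable abbrev w_x47 : M111ˣ := ((uC⁻¹) * (uD⁻¹) * (uA⁻¹) * (uC⁻¹) * (uA⁻¹) * uB * (uC⁻¹) * (uD⁻¹))
/-- The unit of `x96`. -/
noncomputable abbrev w_x96 : M111ˣ := (uB * uD)
/-- The unit of `x129`. -/
noncomputable abbrev w_x129 : M111ˣ := ((uD⁻¹) * (uB⁻¹))
/-- The unit of `x162`. -/
noncomputable abbrev w_x162 : M111ˣ := ((uA⁻¹) * (uB⁻¹) * (uA⁻¹) * uB * (uC⁻¹) * (uB⁻¹) * uA * (uC⁻¹) * uB * uA)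
/-- The unit of `x163`. -/
noncomputable abbrev w_x163 : M111ˣ := (((uB ^ 2)⁻¹) * uA * uC * (uA⁻¹) * uB * uC * uB)
/-- The unit of `x164`. -/
noncomputable abbrev w_x164 : M111ˣ := ((uA⁻¹) * (uB⁻¹) * (uA⁻¹) * uC * uA * uB * uA)
/-- The unit of `x165`. -/
noncomputable abbrev w_x165 : M111ˣ := ((uB⁻¹) * (uA⁻¹) * uB * uC * (uB⁻¹) * uA * uB)
/-- The unit of `x166`. -/
noncomputable abbrev w_x166 : M111ˣ := ((uB ^ 2) * (uA⁻¹) * (uB⁻¹) * uC * uB * uA * uC * ((uB ^ 2)⁻¹) * (uC⁻¹))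
/-- The unit of `x167`. -/
noncomputable abbrev w_x167 : M111ˣ := ((uA ^ 3)⁻¹)
/-- The unit of `x168`. -/
noncomputable abbrev w_x168 : M111ˣ := (uB * (uA⁻¹) * (uB⁻¹) * ((uA ^ 2)⁻¹))
/-- The unit of `x169`. -/
noncomputable abbrev w_x169 : M111ˣ := (uA * (uB ^ 2) * uA * ((uB ^ 2)⁻¹) * (uA⁻¹))
/-- The unit of `x364`. -/
noncomputable abbrev w_x364 : M111ˣ := ((uA⁻¹) * uD * (uB⁻¹) * (uC⁻¹) * (uA⁻¹) * uB * (uC⁻¹) * (uD⁻¹) * uB * (uC⁻¹) * (uB⁻¹) * (uA⁻¹) * (uC⁻¹) * uA * (uB⁻¹) * uA * uB * uA * (uB⁻¹))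
/-- The unit of `x365`. -/
noncomputable abbrev w_x365 : M111ˣ := (uA * ((uB ^ 2)⁻¹) * (uA⁻¹) * uC * uB * (uC⁻¹) * uB * (uA⁻¹) * ((uC ^ 2)⁻¹) * uD * uC * uA * uC * (uA⁻¹) * uC * (uB⁻¹) * (uD⁻¹))
/-- The unit of `x366`. -/
noncomputable abbrev w_x366 : M111ˣ := (uB * uA * (uB⁻¹) * (uA⁻¹) * ((uB ^ 2)⁻¹) * (uA⁻¹) * (uB⁻¹) * uC * (uB ^ 2) * uC * uB * uD * uC * ((uB ^ 2)⁻¹) * uD * uC * uB * uC)
/-- The unit of `x367`. -/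
noncomputable abbrev w_x367 : M111ˣ := ((uC⁻¹) * (uB⁻¹) * (uC⁻¹) * (uD⁻¹) * (uB ^ 2) * (uC⁻¹) * (uD⁻¹) * (uB⁻¹) * (uC⁻¹) * ((uB ^ 2)⁻¹) * (uC⁻¹) * uB * uA * (uB ^ 2) * uA * uB * (uA⁻¹) * (uB⁻¹))
/-- The unit of `x368`. -/
noncomputable abbrev w_x368 : M111ˣ := ((uA⁻¹) * (uC⁻¹) * (uD⁻¹) * uA * (uC⁻¹) * (uB⁻¹) * uA * (uC⁻¹) * (uD⁻¹) * (uA⁻¹) * (uC⁻¹) * uA * uC * ((uB ^ 2)⁻¹) * (uC⁻¹) * (uB⁻¹) * (uA⁻¹) * ((uB ^ 2)⁻¹))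
/-- The unit of `x369`. -/
noncomputable abbrev w_x369 : M111ˣ := ((uA⁻¹) * (uC⁻¹) * (uD⁻¹) * uB * (uA⁻¹) * (uB⁻¹) * (uC⁻¹) * (uD⁻¹) * uB * (uA⁻¹) * (uB⁻¹) * (uC⁻¹) * (uB⁻¹) * uA * ((uB ^ 2)⁻¹) * uA * (uB⁻¹))
/-- The unit of `x370`. -/
noncomputable abbrev w_x370 : M111ˣ := ((uD⁻¹) * uA * uC * uB * uC * (uA⁻¹) * (uC⁻¹) * (uD⁻¹) * uA * (uB⁻¹) * (uA⁻¹) * uC * (uA⁻¹) * ((uB ^ 2)⁻¹) * (uA⁻¹) * uB * (uA⁻¹))
/-- The unit of `x371`. -/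
noncomputable abbrev w_x371 : M111ˣ := ((uC⁻¹) * (uA⁻¹) * uC * uB * (uC⁻¹) * (uD⁻¹) * uC * (uA⁻¹) * uC * uA * uC * (uB⁻¹) * (uA⁻¹) * (uB⁻¹) * (uA⁻¹) * uB)

open Cfsg.Spor.Ly in
/-- The images of the generators. -/
noncomputable def img : Gen → M111ˣ
  | .a => uA
  | .b => uB
  | .c => uC
  | .d => uD
  | .z => uZ
  | .c1 => w_c1
  | .c2 => w_c2
  | .c3 => w_c3
  | .c4 => w_c4
  | .c5 => w_c5
  | .e => w_e
  | .a1 => w_a1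
  | .a2 => w_a2
  | .a3 => w_a3
  | .a4 => w_a4
  | .u => w_u
  | .x23 => w_x23
  | .x24 => w_x24
  | .x25 => w_x25
  | .x29 => w_x29
  | .x47 => w_x47
  | .x96 => w_x96
  | .x129 => w_x129
  | .x162 => w_x162
  | .x163 => w_x163
  | .x164 => w_x164
  | .x165 => w_x165
  | .x166 => w_x166
  | .x167 => w_x167
  | .x168 => w_x168
  | .x169 => w_x169
  | .x364 => w_x364
  | .x365 => w_x365
  | .x366 => w_x366
  | .x367 => w_x367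
  | .x368 => w_x368
  | .x369 => w_x369
  | .x370 => w_x370
  | .x371 => w_x371

theorem img_a : img .a = uA := rfl
theorem img_b : img .b = uB := rfl
theorem img_c : img .c = uC := rfl
theorem img_d : img .d = uD := rfl
theorem img_z : img .z = uZ := rfl
theorem img_c1 : img .c1 = uC := rfl
theorem img_c2 : img .c2 = (uA⁻¹ * uC * uA) := rfl
theorem img_c3 : img .c3 = (uB⁻¹ * uC * uB) := rfl
theorem img_c4 : img .c4 = ((uB⁻¹)⁻¹ * uC * (uB⁻¹)) := rfl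
theorem img_c5 : img .c5 = (w_c1⁻¹ * w_c2⁻¹ * w_c1 * w_c2) := rfl
theorem img_e : img .e = (((uB ^ 2)⁻¹) * (uA⁻¹ * w_c1⁻¹ * uA * w_c1) * (uA⁻¹) * w_c1 * uA * uD * w_c1 * uB * uA * (uB⁻¹) * uD * w_c1 * uD) := rfl
theorem img_a1 : img .a1 = uA := rfl
theorem img_a2 : img .a2 = ((uB⁻¹)⁻¹ * uA * (uB⁻¹)) := rfl
theorem img_a3 : img .a3 = (((uB ^ 2)⁻¹)⁻¹ * uA * ((uB ^ 2)⁻¹)) := rfl
theorem img_a4 : img .a4 = ((uB ^ 2)⁻¹ * uA * (uB ^ 2)) := rfl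
theorem img_u : img .u = (uA ^ 2) := rfl
theorem img_x23 : img .x23 = uD := rfl
theorem img_x24 : img .x24 = (uD⁻¹) := rfl
theorem img_x25 : img .x25 = ((uB ^ 2) * (uA⁻¹) * (uB⁻¹) * (uA⁻¹) * (uB ^ 2) * (uC⁻¹) * uA * uC * (uA⁻¹) * (uC⁻¹) * uD * (uC⁻¹) * (uB ^ 2) * (uA⁻¹) * uC * uB) := rfl
theorem img_x29 : img .x29 = (uA * uB * (uA⁻¹) * (uB ^ 2) * (uA⁻¹) * (uB ^ 2) * (uC⁻¹) * uA * uC * uB * uC * (uB⁻¹) * uD * uC * ((uB ^ 2)⁻¹) * uD * uC * uB * uC) := rfl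
theorem img_x47 : img .x47 = ((uC⁻¹) * (uD⁻¹) * (uA⁻¹) * (uC⁻¹) * (uA⁻¹) * uB * (uC⁻¹) * (uD⁻¹)) := rfl
theorem img_x96 : img .x96 = (uB * uD) := rfl
theorem img_x129 : img .x129 = ((uD⁻¹) * (uB⁻¹)) := rfl
theorem img_x162 : img .x162 = ((uA⁻¹) * (uB⁻¹) * (uA⁻¹) * uB * (uC⁻¹) * (uB⁻¹) * uA * (uC⁻¹) * uB * uA) := rfl
theorem img_x163 : img .x163 = (((uB ^ 2)⁻¹) * uA * uC * (uA⁻¹) * uB * uC * uB) := rfl
theorem img_x164 : img .x164 = ((uA⁻¹) * (uB⁻¹) * (uA⁻¹) * uC * uA * uB * uA) := rfl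
theorem img_x165 : img .x165 = ((uB⁻¹) * (uA⁻¹) * uB * uC * (uB⁻¹) * uA * uB) := rfl
theorem img_x166 : img .x166 = ((uB ^ 2) * (uA⁻¹) * (uB⁻¹) * uC * uB * uA * uC * ((uB ^ 2)⁻¹) * (uC⁻¹)) := rfl
theorem img_x167 : img .x167 = ((uA ^ 3)⁻¹) := rfl
theorem img_x168 : img .x168 = (uB * (uA⁻¹) * (uB⁻¹) * ((uA ^ 2)⁻¹)) := rfl
theorem img_x169 : img .x169 = (uA * (uB ^ 2) * uA * ((uB ^ 2)⁻¹) * (uA⁻¹)) := rfl
theorem img_x364 : img .x364 = ((uA⁻¹) * uD * (uB⁻¹) * (uC⁻¹) * (uA⁻¹) * uB * (uC⁻¹) * (uD⁻¹) * uB * (uC⁻¹) * (uB⁻¹) * (uA⁻¹) * (uC⁻¹) * uA * (uB⁻¹) * uA * uB * uA * (uB⁻¹)) := rfl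
theorem img_x365 : img .x365 = (uA * ((uB ^ 2)⁻¹) * (uA⁻¹) * uC * uB * (uC⁻¹) * uB * (uA⁻¹) * ((uC ^ 2)⁻¹) * uD * uC * uA * uC * (uA⁻¹) * uC * (uB⁻¹) * (uD⁻¹)) := rfl
theorem img_x366 : img .x366 = (uB * uA * (uB⁻¹) * (uA⁻¹) * ((uB ^ 2)⁻¹) * (uA⁻¹) * (uB⁻¹) * uC * (uB ^ 2) * uC * uB * uD * uC * ((uB ^ 2)⁻¹) * uD * uC * uB * uC) := rfl
theorem img_x367 : img .x367 = ((uC⁻¹) * (uB⁻¹) * (uC⁻¹) * (uD⁻¹) * (uB ^ 2) * (uC⁻¹) * (uD⁻¹) * (uB⁻¹) * (uC⁻¹) * ((uB ^ 2)⁻¹) * (uC⁻¹) * uB * uA * (uB ^ 2) * uA * uB * (uA⁻¹) * (uB⁻¹)) := rfl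
theorem img_x368 : img .x368 = ((uA⁻¹) * (uC⁻¹) * (uD⁻¹) * uA * (uC⁻¹) * (uB⁻¹) * uA * (uC⁻¹) * (uD⁻¹) * (uA⁻¹) * (uC⁻¹) * uA * uC * ((uB ^ 2)⁻¹) * (uC⁻¹) * (uB⁻¹) * (uA⁻¹) * ((uB ^ 2)⁻¹)) := rfl
theorem img_x369 : img .x369 = ((uA⁻¹) * (uC⁻¹) * (uD⁻¹) * uB * (uA⁻¹) * (uB⁻¹) * (uC⁻¹) * (uD⁻¹) * uB * (uA⁻¹) * (uB⁻¹) * (uC⁻¹) * (uB⁻¹) * uA * ((uB ^ 2)⁻¹) * uA * (uB⁻¹)) := rfl
theorem img_x370 : img .x370 = ((uD⁻¹) * uA * uC * uB * uC * (uA⁻¹) * (uC⁻¹) * (uD⁻¹) * uA * (uB⁻¹) * (uA⁻¹) * uC * (uA⁻¹) * ((uB ^ 2)⁻¹) * (uA⁻¹) * uB * (uA⁻¹)) := rfl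
theorem img_x371 : img .x371 = ((uC⁻¹) * (uA⁻¹) * uC * uB * (uC⁻¹) * (uD⁻¹) * uC * (uA⁻¹) * uC * uA * uC * (uB⁻¹) * (uA⁻¹) * (uB⁻¹) * (uA⁻¹) * uB) := rfl

end CfsgLib.SporRecognition.LyRep
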